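import Cfsg.Agent.H776.P4.Stmts

/-!
# S5210, task P4-QTwo: the parabolic `Q` for `q = 2`

`K = F₄`, `Q = 2^{1+4}`. An automorphism of `Q` acts on `Q/Z = K²` preserving `q(r,b) = Tr(r star b)`; the automorphisms
acting trivially are inner. Let `X` be induced by `(0;0,0,1)`, `γ ∈ Γ`. Then `γ X γ⁻¹` acts on `K²` as
`v ↦ v + f(v,c₂) c₁ + f(v,c₁) c₂`, `c₁`, `c₂` the images of `(0,1)`, `(0,ω)`. A check over the pairs `(c₁,c₂)` (Booleans) shows
that this commutes with `X`, or is one of the two other involutions of `SL₂(2)`.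
-/

set_option autoImplicit false

namespace Cfsg.Agent.H353.P4.QTwo

open Cfsg Cfsg.Agent.H776.P4
open Cfsg.Agent.H756.PU (HypK NormAut TIAut)

universe u

/-! ### The field with four elements -/

structure F4 (K : Type u) [Field K] [StarRing K] (w : K) : Prop where
  two : (2 : K) = 0
  ww : w * w = w + 1
  sw : star w = w + 1
  all : ∀ x : K, x = 0 ∨ x = 1 ∨ x = w ∨ x = w + 1
  w0 : w ≠ 0
  w1 : w ≠ 1
  fin : Finite K

theorem F4.of_hyp {K : Type u} [Field K] [StarRing K] {p n : ℕ} (h : HypK K p n) (h2 : p ^ n = 2) :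
    ∃ w : K, F4 K w := by
  classical
  have hn := h.hn
  have hp2 : p = 2 := by
    have : p ∣ 2 := by
      rw [← h2]; exact dvd_pow_self p (by omega)
    exact (Nat.prime_dvd_prime_iff_eq h.pp Nat.prime_two).1 this
  have := h.fin
  have := h.char
  have : Fintype K := Fintype.ofFinite K
  have h20 : (2 : K) = 0 := by
    have := CharP.cast_eq_zero K p
    rw [hp2] at this
    exact_mod_cast this
  have hc : Fintype.card K = 4 := by
    have := h.card
    rw [h2, Nat.card_eq_fintype_card] at this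
    exact_mod_cast this
  have hstar : ∀ x : K, star x = x * x := by
    intro x
    rw [h.star_eq, h2, pow_two]
  obtain ⟨w, hw⟩ : ∃ w : K, w ≠ 0 ∧ w ≠ 1 := by
    by_contra hcon
    push Not at hcon
    have hle : (Finset.univ : Finset K) ⊆ {0, 1} := by
      intro x _
      by_cases hx : x = 0
      · simp [hx]
      · simp [hcon x hx]
    have := Finset.card_le_card hle
    rw [Finset.card_univ, hc] at this
    have h3 : ({0, 1} : Finset K).card ≤ 2 := Finset.card_le_two
    omega
  obtain ⟨w0, w1⟩ := hw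
  have h4 : w ^ 4 = w := by
    have := FiniteField.pow_card w
    rwa [hc] at this
  have hww : w * w = w + 1 := by
    have h5 : w * ((w - 1) * (w * w + w + 1)) = 0 := by linear_combination h4
    rcases mul_eq_zero.1 h5 with h6 | h6
    · exact absurd h6 w0
    rcases mul_eq_zero.1 h6 with h7 | h7
    · exact absurd (sub_eq_zero.1 h7) w1
    linear_combination h7 - (w + 1) * h20
  refine ⟨w, h20, hww, ?_, ?_, w0, w1, h.fin⟩
  · rw [hstar, hww]
  · intro x
    have h01 : (0 : K) ≠ 1 := zero_ne_one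
    have h1 : (w + 1 : K) ≠ 0 := by
      intro h8
      apply w1
      linear_combination h8 - h20
    have h1' : (w + 1 : K) ≠ 1 := by
      intro h8
      apply w0
      linear_combination h8
    have hcard : ({0, 1, w, w + 1} : Finset K).card = 4 := by
      rw [Finset.card_insert_of_notMem, Finset.card_insert_of_notMem, Finset.card_insert_of_notMem,
        Finset.card_singleton]
      · simp
      · simp only [Finset.mem_insert, Finset.mem_singleton, not_or]
        exact ⟨fun e => w1 e.symm, fun e => h1' e.symm⟩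
      · simp only [Finset.mem_insert, Finset.mem_singleton, not_or]
        exact ⟨h01, fun e => w0 e.symm, fun e => h1 e.symm⟩
    have huniv : ({0, 1, w, w + 1} : Finset K) = Finset.univ := by
      apply Finset.eq_univ_of_card
      rw [hcard, hc]
    have hx : x ∈ ({0, 1, w, w + 1} : Finset K) := by rw [huniv]; exact Finset.mem_univ x
    simpa using hx

/-! ### The Boolean check -/

abbrev V4 : Type := Bool × Bool × Bool × Bool

def bf : V4 → V4 → Bool := fun v v' =>
  ((v.1 && v'.2.2.2) ^^ (v.2.1 && v'.2.2.1)) ^^ ((v'.1 && v.2.2.2) ^^ (v'.2.1 && v.2.2.1))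

def bq : V4 → Bool := fun v => (v.1 && v.2.2.2) ^^ (v.2.1 && v.2.2.1)

def badd : V4 → V4 → V4 := fun v v' => (v.1 ^^ v'.1, v.2.1 ^^ v'.2.1, v.2.2.1 ^^ v'.2.2.1, v.2.2.2 ^^ v'.2.2.2)

def bsm : Bool → V4 → V4 := fun t v => (t && v.1, t && v.2.1, t && v.2.2.1, t && v.2.2.2)

def bT : V4 → V4 → V4 → V4 := fun c1 c2 v => badd v (badd (bsm (bf v c2) c1) (bsm (bf v c1) c2))

def bX : V4 → V4 := fun v => (v.1, v.2.1, v.2.2.1 ^^ v.1, v.2.2.2 ^^ v.2.1)
def bX1 : V4 → V4 := fun v => (v.1 ^^ v.2.2.1, v.2.1 ^^ v.2.2.2, v.2.2.1, v.2.2.2)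
def bX2 : V4 → V4 := fun v => (v.2.2.1, v.2.2.2, v.1, v.2.1)

def ball (P : V4 → Bool) : Bool :=
  [false, true].all fun a => [false, true].all fun b => [false, true].all fun c => [false, true].all fun d => P (a, b, c, d)

theorem ball_spec {P : V4 → Bool} (h : ball P = true) : ∀ v, P v = true := by
  rintro ⟨a, b, c, d⟩
  simp only [ball, List.all_cons, List.all_nil, Bool.and_true, Bool.and_eq_true] at h
  cases a <;> cases b <;> cases c <;> cases d <;> simp_all

def bchk (c1 c2 : V4) : Bool :=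
  bq c1 || bq c2 || bf c1 c2 || c1 == (false, false, false, false) || c2 == (false, false, false, false) || c1 == c2 ||
    ball (fun v => bX (bT c1 c2 v) == bT c1 c2 (bX v)) || ball (fun v => bT c1 c2 v == bX1 v) ||
    ball (fun v => bT c1 c2 v == bX2 v)

theorem bchk_all : ball (fun c1 => ball (bchk c1)) = true := by decide +kernel

theorem bcheck (c1 c2 : V4) (h1 : bq c1 = false) (h2 : bq c2 = false) (h3 : bf c1 c2 = false)
    (h4 : c1 ≠ (false, false, false, false)) (h5 : c2 ≠ (false, false, false, false)) (h6 : c1 ≠ c2) :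
    (∀ v, bX (bT c1 c2 v) = bT c1 c2 (bX v)) ∨ (∀ v, bT c1 c2 v = bX1 v) ∨ (∀ v, bT c1 c2 v = bX2 v) := by
  have h := ball_spec (ball_spec bchk_all c1) c2
  simp only [bchk, Bool.or_eq_true, h1, h2, h3, beq_iff_eq, h4, h5, h6, Bool.false_eq_true, false_or] at h
  rcases h with (h | h) | h
  · exact Or.inl fun v => by simpa using ball_spec h v
  · exact Or.inr (Or.inl fun v => by simpa using ball_spec h v)
  · exact Or.inr (Or.inr fun v => by simpa using ball_spec h v)

/-! ### The translation -/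

section
variable {K : Type u} [Field K] [StarRing K]

/-- the form on `Q/Z` -/
def ff (v v' : K × K) : K := v.1 * star v'.2 + star v.1 * v'.2 + (v'.1 * star v.2 + star v'.1 * v.2)

/-- the quadratic form on `Q/Z` -/
def qq (v : K × K) : K := v.1 * star v.2 + star v.1 * v.2

def tt (b : Bool) : K := cond b 1 0

def BB (w : K) (v : V4) : K × K := (tt v.1 + tt v.2.1 * w, tt v.2.2.1 + tt v.2.2.2 * w)

variable {w : K}

theorem F4.tt_xor (h : F4 K w) (a b : Bool) : (tt (a ^^ b) : K) = tt a + tt b := by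
  have h2 := h.two
  cases a <;> cases b <;> simp [tt]
  linear_combination -h2

omit [StarRing K] in
theorem tt_and (a b : Bool) : (tt (a && b) : K) = tt a * tt b := by
  cases a <;> cases b <;> simp [tt]

theorem tt_star (a : Bool) : star (tt a : K) = tt a := by
  cases a <;> simp [tt]

omit [StarRing K] in
theorem tt_eq_zero (a : Bool) : (tt a : K) = 0 ↔ a = false := by
  cases a <;> simp [tt]

theorem F4.ff_BB (h : F4 K w) (v v' : V4) : ff (BB w v) (BB w v') = tt (bf v v') := by
  simp only [ff, BB, bf, h.tt_xor, tt_and, star_add, star_mul', tt_star, h.sw]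
  linear_combination (tt v.1 * tt v'.2.2.1 + tt v.1 * tt v'.2.2.2 * w + tt v.2.1 * tt v'.2.2.1 * w + tt v.2.1 * tt v'.2.2.2 * (w * w + w)
    + tt v'.1 * tt v.2.2.1 + tt v'.1 * tt v.2.2.2 * w + tt v'.2.1 * tt v.2.2.1 * w + tt v'.2.1 * tt v.2.2.2 * (w * w + w)) * h.two

theorem F4.qq_BB (h : F4 K w) (v : V4) : qq (BB w v) = tt (bq v) := by
  simp only [qq, BB, bq, h.tt_xor, tt_and, star_add, star_mul', tt_star, h.sw]
  linear_combination (tt v.1 * tt v.2.2.1 + tt v.1 * tt v.2.2.2 * w + tt v.2.1 * tt v.2.2.1 * w + tt v.2.1 * tt v.2.2.2 * (w * w + w)) * h.two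

theorem F4.BB_add (h : F4 K w) (v v' : V4) : BB w (badd v v') = BB w v + BB w v' := by
  ext
  · simp only [BB, badd, h.tt_xor, Prod.fst_add]; ring
  · simp only [BB, badd, h.tt_xor, Prod.snd_add]; ring

omit [StarRing K] in
theorem F4.BB_sm (t : Bool) (v : V4) : BB w (bsm t v) = (tt t : K) • BB w v := by
  ext
  · simp only [BB, bsm, tt_and, Prod.smul_fst, smul_eq_mul]; ring
  · simp only [BB, bsm, tt_and, Prod.smul_snd, smul_eq_mul]; ring

theorem F4.tt_w (h : F4 K w) (x : K) : ∃ i j : Bool, x = tt i + tt j * w := by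
  rcases h.all x with rfl | rfl | rfl | rfl
  · exact ⟨false, false, by simp [tt]⟩
  · exact ⟨true, false, by simp [tt]⟩
  · exact ⟨false, true, by simp [tt]⟩
  · exact ⟨true, true, by simp [tt]; ring⟩

theorem F4.BB_surj (h : F4 K w) (v : K × K) : ∃ u : V4, BB w u = v := by
  obtain ⟨i, j, h1⟩ := h.tt_w v.1
  obtain ⟨k, l, h2⟩ := h.tt_w v.2
  exact ⟨(i, j, k, l), Prod.ext h1.symm h2.symm⟩

/-- the transvection-like map -/
def TT (c1 c2 v : K × K) : K × K := v + (ff v c2 • c1 + ff v c1 • c2)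

theorem F4.BB_T (h : F4 K w) (c1 c2 v : V4) : BB w (bT c1 c2 v) = TT (BB w c1) (BB w c2) (BB w v) := by
  simp only [bT, TT, h.BB_add, F4.BB_sm, h.ff_BB]

def XX (v : K × K) : K × K := (v.1, v.2 + v.1)

theorem F4.BB_X (h : F4 K w) (v : V4) : BB w (bX v) = XX (BB w v) := by
  ext
  · simp only [BB, bX, XX]
  · simp only [BB, bX, XX, h.tt_xor]; ring

theorem F4.check (h : F4 K w) (c1 c2 : K × K) (h1 : qq c1 = 0) (h2 : qq c2 = 0) (h3 : ff c1 c2 = 0)
    (h4 : c1 ≠ 0) (h5 : c2 ≠ 0) (h6 : c1 ≠ c2) :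
    (∀ v, XX (TT c1 c2 v) = TT c1 c2 (XX v)) ∨ (∀ v, TT c1 c2 v = (v.1 + v.2, v.2)) ∨ (∀ v, TT c1 c2 v = (v.2, v.1)) := by
  obtain ⟨u1, rfl⟩ := h.BB_surj c1
  obtain ⟨u2, rfl⟩ := h.BB_surj c2
  rw [h.qq_BB, tt_eq_zero] at h1 h2
  rw [h.ff_BB, tt_eq_zero] at h3
  have h40 : u1 ≠ (false, false, false, false) := by
    rintro rfl
    exact h4 (by simp [BB, tt])
  have h50 : u2 ≠ (false, false, false, false) := by
    rintro rfl
    exact h5 (by simp [BB, tt])
  have h60 : u1 ≠ u2 := by
    rintro rfl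
    exact h6 rfl
  rcases bcheck u1 u2 h1 h2 h3 h40 h50 h60 with hh | hh | hh
  · refine Or.inl fun v => ?_
    obtain ⟨u, rfl⟩ := h.BB_surj v
    rw [← h.BB_T, ← h.BB_X, hh, h.BB_T, h.BB_X]
  · refine Or.inr (Or.inl fun v => ?_)
    obtain ⟨u, rfl⟩ := h.BB_surj v
    rw [← h.BB_T, hh]
    ext
    · simp only [BB, bX1, h.tt_xor]; ring
    · simp only [BB, bX1]
  · refine Or.inr (Or.inr fun v => ?_)
    obtain ⟨u, rfl⟩ := h.BB_surj v
    rw [← h.BB_T, hh]
    rfl

end

/-! ### The group `Q` -/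

section
variable {K : Type u} [Field K] [StarRing K] {w : K}

/-- the image in `Q/Z` -/
def co (e : PQ K) : K × K := ((e : PG K).r, (e : PG K).b)

theorem co_mul (e e' : PQ K) : co (e * e') = co e + co e' := by
  ext
  · rfl
  · have h : (e' : PG K).c = 0 := e'.2
    simp only [co, Subgroup.coe_mul, PG.mul_b, h, mul_zero, add_zero, Prod.snd_add]

theorem co_one : co (1 : PQ K) = 0 := rfl

/-- the element `(v.1; 0, v.2)` -/
def up (v : K × K) : PQ K := ⟨⟨v.1, 0, v.2, 0, star_zero _, star_zero _⟩, rfl⟩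

theorem co_up (v : K × K) : co (up v) = v := rfl

/-- the central involution -/
def zz : PQ K := ⟨⟨0, 1, 0, 0, star_one _, star_zero _⟩, rfl⟩

theorem co_zz : co (zz : PQ K) = 0 := rfl

theorem zz_comm (e : PQ K) : zz * e = e * zz := by
  apply Subtype.ext
  apply PG.ext
  · simp [zz]
  · simp [zz, PG.mul_a]; ring
  · simp [zz, PG.mul_b]
  · simp [zz]

theorem zz_ne : (zz : PQ K) ≠ 1 := by
  intro h
  have := congrArg (fun e : PQ K => (e : PG K).a) h
  simp [zz] at this

theorem F4.fix (h : F4 K w) {x : K} (hx : star x = x) : x = 0 ∨ x = 1 := by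
  rcases h.all x with rfl | rfl | rfl | rfl
  · exact Or.inl rfl
  · exact Or.inr rfl
  · exfalso
    rw [h.sw] at hx
    exact one_ne_zero (α := K) (by linear_combination hx)
  · exfalso
    rw [star_add, star_one, h.sw] at hx
    exact one_ne_zero (α := K) (by linear_combination hx)

theorem star_ff (v v' : K × K) : star (ff v v') = ff v v' := by
  simp only [ff, star_add, star_mul', star_star]; ring

theorem star_qq (v : K × K) : star (qq v) = qq v := by
  simp only [qq, star_add, star_mul', star_star]; ring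

theorem F4.co_eq (h : F4 K w) {e e' : PQ K} (hc : co e = co e') : e' = e ∨ e' = zz * e := by
  obtain ⟨⟨r, a, b, c, ha, hc'⟩, h0⟩ := e
  obtain ⟨⟨r', a', b', c', ha', hc''⟩, h0'⟩ := e'
  have h0 : c = 0 := h0
  have h0' : c' = 0 := h0'
  subst h0 h0'
  have h1 : r = r' := congrArg Prod.fst hc
  have h2 : b = b' := congrArg Prod.snd hc
  subst h1 h2
  have h3 : star (a' - a) = a' - a := by rw [star_sub, ha, ha']
  rcases h.fix h3 with h4 | h4
  · left
    have : a' = a := by linear_combination h4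
    subst this
    rfl
  · right
    apply Subtype.ext
    apply PG.ext
    · simp [zz]
    · simp only [zz, Subgroup.coe_mul, PG.mul_a, star_zero]; linear_combination h4
    · simp [zz, PG.mul_b]
    · simp [zz]

theorem F4.comm_iff (h : F4 K w) (e e' : PQ K) : e * e' = e' * e ↔ ff (co e) (co e') = 0 := by
  have h0 : (e : PG K).c = 0 := e.2
  have h0' : (e' : PG K).c = 0 := e'.2
  constructor
  · intro he
    have := congrArg (fun e : PQ K => (e : PG K).a) he
    simp only [Subgroup.coe_mul, PG.mul_a, h0, h0'] at this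
    simp only [ff, co]
    linear_combination this + ((e' : PG K).r * star (e : PG K).b + star (e' : PG K).r * (e : PG K).b) * h.two
  · intro he
    simp only [ff, co] at he
    apply Subtype.ext
    apply PG.ext
    · simp [add_comm]
    · simp only [Subgroup.coe_mul, PG.mul_a, h0, h0']
      linear_combination he - ((e' : PG K).r * star (e : PG K).b + star (e' : PG K).r * (e : PG K).b) * h.two
    · simp only [Subgroup.coe_mul, PG.mul_b, h0, h0']; ring
    · simp [add_comm]

theorem F4.sq_iff (h : F4 K w) (e : PQ K) : e * e = 1 ↔ qq (co e) = 0 := by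
  have h0 : (e : PG K).c = 0 := e.2
  constructor
  · intro he
    have := congrArg (fun e : PQ K => (e : PG K).a) he
    simp only [Subgroup.coe_mul, PG.mul_a, h0, Subgroup.coe_one, PG.one_a] at this
    simp only [qq, co]
    linear_combination this - ((e : PG K).a) * h.two
  · intro he
    simp only [qq, co] at he
    apply Subtype.ext
    apply PG.ext
    · simp only [Subgroup.coe_mul, PG.mul_r, Subgroup.coe_one, PG.one_r]
      linear_combination ((e : PG K).r) * h.two
    · simp only [Subgroup.coe_mul, PG.mul_a, h0, Subgroup.coe_one, PG.one_a]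
      linear_combination he + ((e : PG K).a) * h.two
    · simp only [Subgroup.coe_mul, PG.mul_b, h0, Subgroup.coe_one, PG.one_b]
      linear_combination ((e : PG K).b) * h.two
    · simp only [Subgroup.coe_mul, PG.mul_c, Subgroup.coe_one, PG.one_c, h0, add_zero]

theorem F4.swap (h : F4 K w) (e e' : PQ K) (hn : e * e' ≠ e' * e) : e * e' = zz * (e' * e) := by
  rcases h.co_eq (e := e' * e) (e' := e * e') (by rw [co_mul, co_mul, add_comm]) with h1 | h1
  · exact absurd h1 hn
  · exact h1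

theorem F4.map_zz (h : F4 K w) (γ : MulAut (PQ K)) : γ zz = zz := by
  have hne : (up (1, 0) : PQ K) * up (0, w) ≠ up (0, w) * up (1, 0) := by
    intro he
    rw [h.comm_iff] at he
    simp only [co_up, ff, star_zero, h.sw, star_one] at he
    exact one_ne_zero (α := K) (by linear_combination he - w * h.two)
  have h1 := h.swap _ _ hne
  have hne' : γ (up (1, 0)) * γ (up (0, w)) ≠ γ (up (0, w)) * γ (up (1, 0)) := by
    intro he
    rw [← map_mul, ← map_mul] at he
    exact hne (γ.injective he)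
  have h2 := h.swap _ _ hne'
  rw [← map_mul, h1, map_mul, map_mul] at h2
  exact mul_right_cancel h2

theorem F4.map_co (h : F4 K w) (γ : MulAut (PQ K)) {e e' : PQ K} (hc : co e = co e') : co (γ e) = co (γ e') := by
  rcases h.co_eq hc with rfl | rfl
  · rfl
  · rw [map_mul, h.map_zz, co_mul, co_zz, zero_add]

theorem F4.map_ff (h : F4 K w) (γ : MulAut (PQ K)) (e e' : PQ K) : ff (co (γ e)) (co (γ e')) = ff (co e) (co e') := by
  have h1 : ff (co (γ e)) (co (γ e')) = 0 ↔ ff (co e) (co e') = 0 := by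
    rw [← h.comm_iff, ← h.comm_iff, ← map_mul, ← map_mul]
    exact ⟨fun hh => γ.injective hh, fun hh => by rw [hh]⟩
  rcases h.fix (star_ff (co (γ e)) (co (γ e'))) with h2 | h2 <;> rcases h.fix (star_ff (co e) (co e')) with h3 | h3
  · rw [h2, h3]
  · rw [h1.1 h2] at h3
    exact absurd h3 zero_ne_one
  · rw [h1.2 h3] at h2
    exact absurd h2 zero_ne_one
  · rw [h2, h3]

theorem F4.map_qq (h : F4 K w) (γ : MulAut (PQ K)) (e : PQ K) : qq (co (γ e)) = 0 ↔ qq (co e) = 0 := by
  rw [← h.sq_iff, ← h.sq_iff, ← map_mul]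
  constructor
  · intro hh
    apply γ.injective
    rw [hh, map_one]
  · intro hh
    rw [hh, map_one]

/-- the action on `Q/Z` -/
def F4.rho (h : F4 K w) : MulAut (PQ K) →* Function.End (K × K) where
  toFun γ := fun v => co (γ (up v))
  map_one' := rfl
  map_mul' γ γ' := by
    funext v
    exact h.map_co γ (co_up _).symm

theorem F4.rho_co (h : F4 K w) (γ : MulAut (PQ K)) (e : PQ K) : h.rho γ (co e) = co (γ e) :=
  h.map_co γ (co_up _)

end

/-! ### Inner automorphisms and `Aut_S(Q)` -/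

section
variable {K : Type u} [Field K] [StarRing K] {w : K}

instance normal_PQ : (PQ K).Normal where
  conj_mem := by
    intro n hn g
    have hn : n.c = 0 := hn
    show (g * n * g⁻¹).c = 0
    simp [hn]

theorem mem_aut_iff (α : MulAut (PQ K)) : α ∈ autInducedBy ⊤ (PQ K) ↔ ∃ g : PG K, α = MulAut.conjNormal g := by
  constructor
  · intro h
    have hle : autInducedBy ⊤ (PQ K) ≤ (MulAut.conjNormal : PG K →* MulAut (PQ K)).range := by
      rw [autInducedBy, Subgroup.closure_le]
      rintro β ⟨g, -, hg⟩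
      refine ⟨g, ?_⟩
      ext e
      · rw [hg]; rfl
      · rw [hg]; rfl
      · rw [hg]; rfl
      · rw [hg]; rfl
    obtain ⟨g, hg⟩ := hle h
    exact ⟨g, hg.symm⟩
  · rintro ⟨g, rfl⟩
    exact Subgroup.subset_closure ⟨g, Subgroup.mem_top g, fun x => MulAut.conjNormal_apply g x⟩

theorem conj_mem_aut (i : PQ K) : MulAut.conj i ∈ autInducedBy ⊤ (PQ K) :=
  Subgroup.subset_closure ⟨i, Subgroup.mem_top _, fun _ => rfl⟩

theorem F4.rho_conj (h : F4 K w) (g : PG K) (v : K × K) :
    h.rho (MulAut.conjNormal g) v = (v.1, v.2 + g.c * v.1) := by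
  show co (MulAut.conjNormal g (up v)) = _
  ext
  · simp only [co, MulAut.conjNormal_apply, PG.mul_r, PG.inv_r, up]; ring
  · simp only [co, MulAut.conjNormal_apply, PG.mul_b, PG.mul_r, PG.inv_b, PG.inv_c, up]
    linear_combination -(v.1 * g.c) * h.two

/-- an automorphism trivial on `Q/Z` is inner -/
theorem F4.inner (h : F4 K w) (γ : MulAut (PQ K)) (hγ : h.rho γ = 1) : ∃ i : PQ K, γ = MulAut.conj i := by
  have hco : ∀ e, co (γ e) = co e := by
    intro e
    rw [← h.rho_co, hγ]; rfl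
  set lam : PQ K → K := fun e => ((γ e : PQ K) : PG K).a - (e : PG K).a with hlam
  have lam_mul : ∀ e e', lam (e * e') = lam e + lam e' := by
    intro e e'
    have h1 : ((γ e : PQ K) : PG K).r = (e : PG K).r := congrArg Prod.fst (hco e)
    have h2 : ((γ e' : PQ K) : PG K).b = (e' : PG K).b := congrArg Prod.snd (hco e')
    have h3 : ((γ e' : PQ K) : PG K).c = 0 := (γ e').2
    have h4 : (e' : PG K).c = 0 := e'.2
    simp only [hlam, map_mul, Subgroup.coe_mul, PG.mul_a, h1, h2, h3, h4]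
    ring
  have lam_zz : lam zz = 0 := by
    simp only [hlam, h.map_zz, sub_self]
  have lam_co : ∀ {e e'}, co e = co e' → lam e' = lam e := by
    intro e e' he
    rcases h.co_eq he with rfl | rfl
    · rfl
    · rw [lam_mul, lam_zz, zero_add]
  have lam_star : ∀ e, star (lam e) = lam e := by
    intro e
    simp only [hlam, star_sub, PG.ha]
  set L : K × K → K := fun v => lam (up v) with hL
  have L_add : ∀ v v', L (v + v') = L v + L v' := by
    intro v v'
    simp only [hL]
    rw [← lam_mul]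
    exact (lam_co (by rw [co_up, co_mul, co_up, co_up]))
  have L_co : ∀ e, lam e = L (co e) := fun e => (lam_co (co_up _))
  set i : PQ K := up (L (0, w) + L (0, 1) * w, L (w, 0) + L (1, 0) * w) with hi
  have L0 : L 0 = 0 := by
    have := L_add 0 0
    rw [add_zero] at this
    linear_combination -this
  have L_star : ∀ v, star (L v) = L v := fun v => lam_star _
  have hr : ∀ r : K, L (r, 0) = ff (co i) (r, 0) := by
    intro r
    have h1 : L (1, 0) = ff (co i) (1, 0) := by
      simp only [hi, co_up, ff, star_add, star_mul', L_star, h.sw, star_zero, star_one]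
      linear_combination -(L (w, 0) + L (1, 0) * w) * h.two
    have hw' : L (w, 0) = ff (co i) (w, 0) := by
      simp only [hi, co_up, ff, star_add, star_mul', L_star, h.sw, star_zero]
      linear_combination -(L (w, 0) * w + L (1, 0) * w * (w + 1)) * h.two
    rcases h.all r with rfl | rfl | rfl | rfl
    · rw [show ((0 : K), (0 : K)) = 0 from rfl, L0]
      simp [ff]
    · exact h1
    · exact hw'
    · have : ((w + 1 : K), (0 : K)) = (w, 0) + (1, 0) := by simp
      rw [this, L_add, h1, hw']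
      simp only [ff, Prod.fst_add, Prod.snd_add, star_add, star_zero]; ring
  have hb : ∀ b : K, L (0, b) = ff (co i) (0, b) := by
    intro b
    have h1 : L (0, 1) = ff (co i) (0, 1) := by
      simp only [hi, co_up, ff, star_add, star_mul', L_star, h.sw, star_zero, star_one]
      linear_combination -(L (0, w) + L (0, 1) * w) * h.two
    have hw' : L (0, w) = ff (co i) (0, w) := by
      simp only [hi, co_up, ff, star_add, star_mul', L_star, h.sw, star_zero]
      linear_combination -(L (0, w) * w + L (0, 1) * w * (w + 1)) * h.two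
    rcases h.all b with rfl | rfl | rfl | rfl
    · rw [show ((0 : K), (0 : K)) = 0 from rfl, L0]
      simp [ff]
    · exact h1
    · exact hw'
    · have : ((0 : K), (w + 1 : K)) = (0, w) + (0, 1) := by simp
      rw [this, L_add, h1, hw']
      simp only [ff, Prod.fst_add, Prod.snd_add, star_add, star_zero]; ring
  refine ⟨i, ?_⟩
  have key : ∀ e, lam e = ff (co i) (co e) := by
    intro e
    have : co e = ((co e).1, 0) + (0, (co e).2) := by simp
    rw [L_co, this, L_add, hr, hb]
    simp only [ff, Prod.fst_add, Prod.snd_add, star_add, star_zero]; ring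
  refine MulEquiv.ext fun e => ?_
  apply Subtype.ext
  have h1 : ((γ e : PQ K) : PG K).r = (e : PG K).r := congrArg Prod.fst (hco e)
  have h2 : ((γ e : PQ K) : PG K).b = (e : PG K).b := congrArg Prod.snd (hco e)
  have h3 : ((γ e : PQ K) : PG K).c = 0 := (γ e).2
  have h4 : (e : PG K).c = 0 := e.2
  have h5 : (i : PG K).c = 0 := i.2
  have hk := key e
  simp only [hlam, ff, co] at hk
  apply PG.ext
  · simp only [MulAut.conj_apply, Subgroup.coe_mul, Subgroup.coe_inv, PG.mul_r, PG.inv_r, h1]; ring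
  · simp only [MulAut.conj_apply, Subgroup.coe_mul, Subgroup.coe_inv, PG.mul_a, PG.inv_a, PG.inv_b, PG.inv_c,
      PG.mul_r, h4, h5, star_add, star_neg, star_mul', star_zero]
    linear_combination hk + ((e : PG K).r * star (i : PG K).b + star (e : PG K).r * (i : PG K).b) * h.two
  · simp only [MulAut.conj_apply, Subgroup.coe_mul, Subgroup.coe_inv, PG.mul_b, PG.inv_b, PG.inv_c, PG.mul_r, h2, h4, h5]; ring
  · simp only [MulAut.conj_apply, Subgroup.coe_mul, Subgroup.coe_inv, PG.mul_c, PG.inv_c, h3, h4, h5]; ring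

/-- a subgroup containing `Aut_S(Q)` is determined by the action on `Q/Z` -/
theorem F4.mem_of_rho (h : F4 K w) {H : Subgroup (MulAut (PQ K))} (hH : autInducedBy ⊤ (PQ K) ≤ H) {α β : MulAut (PQ K)}
    (hα : α ∈ H) (hβ : h.rho β = h.rho α) : β ∈ H := by
  obtain ⟨i, hi⟩ := h.inner (β * α⁻¹) (by rw [map_mul, hβ, ← map_mul, mul_inv_cancel, map_one])
  have : β = MulAut.conj i * α := by rw [← hi, inv_mul_cancel_right]
  rw [this]
  exact H.mul_mem (hH (conj_mem_aut i)) hα

end

/-! ### The involution `X` and its conjugates -/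

section
variable {K : Type u} [Field K] [StarRing K] {w : K}

variable (K) in
def vX : PG K := ⟨0, 0, 0, 1, star_zero _, star_one _⟩

variable (K) in
/-- the automorphism induced by `(0;0,0,1)` -/
def X : MulAut (PQ K) := MulAut.conjNormal (vX K)

theorem X_mem : X K ∈ autInducedBy ⊤ (PQ K) := (mem_aut_iff _).2 ⟨_, rfl⟩

theorem F4.rho_X (h : F4 K w) (v : K × K) : h.rho (X K) v = XX v := by
  rw [X, h.rho_conj]
  simp [vX, XX]

theorem F4.X_sq (h : F4 K w) : X K * X K = 1 := by
  have : vX K * vX K = 1 := by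
    apply PG.ext
    · simp [vX]
    · simp [vX, PG.mul_a]
    · simp [vX, PG.mul_b]
    · simp only [vX, PG.mul_c, PG.one_c]
      linear_combination h.two
  rw [X, ← map_mul, this, map_one]

theorem F4.X_not_inn (h : F4 K w) : X K ∉ Inn (PQ K) := by
  rintro ⟨i, hi⟩
  have h1 := h.rho_X (1, 0)
  rw [← hi] at h1
  have h2 : h.rho (MulAut.conj i) (1, 0) = (1, 0) := by
    have h3 := h.rho_conj (i : PG K) (1, 0)
    have h4 : (i : PG K).c = 0 := i.2
    rw [h4, zero_mul, add_zero] at h3
    exact h3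
  rw [h2] at h1
  simp [XX] at h1

theorem F4.mem_aut (h : F4 K w) (α : MulAut (PQ K)) :
    α ∈ autInducedBy ⊤ (PQ K) ↔ h.rho α = 1 ∨ h.rho α = h.rho (X K) := by
  constructor
  · intro hα
    obtain ⟨g, rfl⟩ := (mem_aut_iff α).1 hα
    rcases h.fix g.hc with h1 | h1
    · left
      funext v
      show _ = v
      rw [h.rho_conj, h1]
      simp
    · right
      funext v
      rw [h.rho_conj, h1, h.rho_X]
      simp [XX]
  · rintro (h1 | h1)
    · exact h.mem_of_rho le_rfl (Subgroup.one_mem _) (by rw [h1, map_one])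
    · exact h.mem_of_rho le_rfl X_mem h1

/-- the conjugates of `X` on `Q/Z` -/
theorem F4.rho_conj_X (h : F4 K w) (γ : MulAut (PQ K)) (v : K × K) :
    h.rho (γ * X K * γ⁻¹) v = TT (co (γ (up (0, 1)))) (co (γ (up (0, w)))) v := by
  set e : PQ K := γ⁻¹ (up v) with he
  have hge : γ e = up v := by rw [he]; exact MulAut.apply_inv_self _ _ _
  set r : K := (co e).1 with hr
  have hX : co (X K e) = co (e * up (0, r)) := by
    rw [← h.rho_co, h.rho_X, co_mul, co_up]
    ext <;> simp [XX, hr]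
  have h1 : h.rho (γ * X K * γ⁻¹) v = v + co (γ (up (0, r))) := by
    show co ((γ * X K * γ⁻¹) (up v)) = _
    rw [show (γ * X K * γ⁻¹) (up v) = γ (X K e) from rfl, h.map_co γ hX, map_mul, co_mul, hge, co_up]
  rw [h1, TT]
  congr 1
  have hf1 : ff v (co (γ (up (0, w)))) = ff (co e) (0, w) := by
    have := h.map_ff γ e (up (0, w))
    rwa [hge, co_up, co_up] at this
  have hf2 : ff v (co (γ (up (0, 1)))) = ff (co e) (0, 1) := by
    have := h.map_ff γ e (up (0, 1))
    rwa [hge, co_up, co_up] at this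
  rw [hf1, hf2]
  have hf3 : ff (co e) (0, w) = r * (w + 1) + star r * w := by
    simp only [ff, h.sw, star_zero, hr]; ring
  have hf4 : ff (co e) (0, 1) = r + star r := by
    simp only [ff, star_one, star_zero, hr]; ring
  rw [hf3, hf4]
  rcases h.all r with h2 | h2 | h2 | h2
  · rw [h2]
    have : (up ((0 : K), (0 : K)) : PQ K) = 1 := rfl
    rw [this, map_one, co_one]
    simp
  · rw [h2]
    have e1 : (1 : K) * (w + 1) + star 1 * w = 1 := by rw [star_one]; linear_combination w * h.two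
    have e2 : (1 : K) + star 1 = 0 := by rw [star_one]; linear_combination h.two
    rw [e1, e2]; simp
  · rw [h2]
    have e1 : (w : K) * (w + 1) + star w * w = 0 := by rw [h.sw]; linear_combination w * (w + 1) * h.two
    have e2 : (w : K) + star w = 1 := by rw [h.sw]; linear_combination w * h.two
    rw [e1, e2]; simp
  · rw [h2]
    have e1 : (w + 1 : K) * (w + 1) + star (w + 1) * w = 1 := by
      rw [star_add, star_one, h.sw]; linear_combination w * (w + 2) * h.two
    have e2 : (w + 1 : K) + star (w + 1) = 1 := by rw [star_add, star_one, h.sw]; linear_combination (w + 1) * h.two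
    rw [e1, e2, one_smul, one_smul, ← co_mul, ← map_mul]
    apply h.map_co
    rw [co_mul, co_up, co_up, co_up]
    ext <;> simp [add_comm]

theorem F4.inj (h : F4 K w) (γ : MulAut (PQ K)) {e e' : PQ K} (hc : co (γ e) = co (γ e')) : co e = co e' := by
  have := h.map_co γ⁻¹ hc
  rwa [MulAut.inv_apply_self, MulAut.inv_apply_self] at this

theorem F4.trichotomy (h : F4 K w) (γ : MulAut (PQ K)) :
    (∀ v, XX (h.rho (γ * X K * γ⁻¹) v) = h.rho (γ * X K * γ⁻¹) (XX v)) ∨
    (∀ v, h.rho (γ * X K * γ⁻¹) v = (v.1 + v.2, v.2)) ∨ (∀ v, h.rho (γ * X K * γ⁻¹) v = (v.2, v.1)) := by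
  simp only [h.rho_conj_X]
  apply h.check
  · rw [h.map_qq, co_up]; simp [qq]
  · rw [h.map_qq, co_up]; simp [qq]
  · rw [h.map_ff, co_up, co_up]; simp [ff]
  · intro h0
    have : co (up ((0 : K), (1 : K))) = co (1 : PQ K) := by
      apply h.inj γ
      rw [map_one, h0, co_one]
    rw [co_up, co_one] at this
    exact one_ne_zero (congrArg Prod.snd this)
  · intro h0
    have : co (up ((0 : K), w)) = co (1 : PQ K) := by
      apply h.inj γ
      rw [map_one, h0, co_one]
    rw [co_up, co_one] at this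
    exact h.w0 (congrArg Prod.snd this)
  · intro h0
    have := h.inj γ h0
    rw [co_up, co_up] at this
    exact h.w1 (congrArg Prod.snd this).symm

end

/-! ### The Weyl element -/

section
variable {K : Type u} [Field K] [StarRing K] {w : K}

def Wfun (e : PQ K) : PQ K :=
  ⟨⟨(e : PG K).b, (e : PG K).a - ((e : PG K).r * star (e : PG K).b + star (e : PG K).r * (e : PG K).b), -(e : PG K).r, 0, by
    simp only [star_sub, star_add, star_mul', star_star, (e : PG K).ha]; ring, star_zero _⟩, rfl⟩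

theorem Wfun_mul (e e' : PQ K) : Wfun (e * e') = Wfun e * Wfun e' := by
  have h4 : (e : PG K).c = 0 := e.2
  have h5 : (e' : PG K).c = 0 := e'.2
  apply Subtype.ext
  apply PG.ext
  · simp only [Wfun, Subgroup.coe_mul, PG.mul_b, PG.mul_r, h5]; ring
  · simp only [Wfun, Subgroup.coe_mul, PG.mul_a, PG.mul_b, PG.mul_r, h5, star_add, star_mul', star_neg, star_zero]; ring
  · simp only [Wfun, Subgroup.coe_mul, PG.mul_b, PG.mul_r]; ring
  · simp [Wfun]

theorem F4.Wfun_Wfun (h : F4 K w) (e : PQ K) : Wfun (Wfun e) = e := by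
  have h4 : (e : PG K).c = 0 := e.2
  apply Subtype.ext
  apply PG.ext
  · simp only [Wfun]; linear_combination -(e : PG K).r * h.two
  · simp only [Wfun, star_neg]; ring
  · simp only [Wfun]; linear_combination -(e : PG K).b * h.two
  · simp only [Wfun, h4]

/-- the Weyl element exists -/
theorem F4.exists_W (h : F4 K w) : ∃ W : MulAut (PQ K), IsWQ W := by
  refine ⟨{ toFun := Wfun, invFun := Wfun, left_inv := h.Wfun_Wfun, right_inv := h.Wfun_Wfun, map_mul' := Wfun_mul }, ?_⟩
  exact ⟨fun e => rfl, fun e => rfl, fun e => rfl⟩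

theorem F4.rho_W (h : F4 K w) {W : MulAut (PQ K)} (hW : IsWQ W) (v : K × K) : h.rho W v = (v.2, v.1) := by
  show co (W (up v)) = _
  ext
  · simp only [co, hW.r, up]
  · simp only [co, hW.b, up]; linear_combination -v.1 * h.two

end

/-! ### The main argument -/

section
variable {K : Type u} [Field K] [StarRing K] {w : K}

theorem F4.finite_PQ (h : F4 K w) : Finite (PQ K) := by
  have := h.fin
  refine Finite.of_injective (fun e : PQ K => ((e : PG K).r, (e : PG K).a, (e : PG K).b)) ?_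
  intro e e' he
  simp only [Prod.mk.injEq] at he
  obtain ⟨h1, h2, h3⟩ := he
  have h4 : (e : PG K).c = 0 := e.2
  have h5 : (e' : PG K).c = 0 := e'.2
  exact Subtype.ext (PG.ext h1 h2 h3 (h4.trans h5.symm))

theorem F4.pow4 (h : F4 K w) (g : PG K) : g ^ 4 = 1 := by
  have h1 : g ^ 4 = (g * g) * (g * g) := by rw [← pow_two, ← pow_two, ← pow_mul]
  have hr : (g * g).r = 0 := by rw [PG.mul_r]; linear_combination g.r * h.two
  have hc : (g * g).c = 0 := by rw [PG.mul_c]; linear_combination g.c * h.two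
  rw [h1]
  apply PG.ext
  · rw [PG.mul_r, hr, PG.one_r, add_zero]
  · rw [PG.mul_a, hr, hc, star_zero, PG.one_a]
    linear_combination (g * g).a * h.two
  · rw [PG.mul_b, hr, PG.one_b]
    linear_combination (g * g).b * h.two
  · rw [PG.mul_c, hc, PG.one_c, add_zero]

theorem F4.aut_pgroup (h : F4 K w) : IsPGroup 2 (autInducedBy ⊤ (PQ K)) := by
  rintro ⟨α, hα⟩
  obtain ⟨g, rfl⟩ := (mem_aut_iff α).1 hα
  refine ⟨2, ?_⟩
  apply Subtype.ext
  show (MulAut.conjNormal g : MulAut (PQ K)) ^ (2 ^ 2) = 1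
  rw [← map_pow, show 2 ^ 2 = 4 from rfl, h.pow4, map_one]

/-- if `γ X γ⁻¹` commutes with `X` modulo `Inn(Q)` then it lies in `Aut_S(Q)` -/
theorem F4.comm_case (h : F4 K w) {Γ : Subgroup (MulAut (PQ K))}
    (indu : autInducedBy ⊤ (PQ K) ≤ Γ)
    (syl : ∀ P : Subgroup (MulAut (PQ K)), P ≤ Γ → IsPGroup 2 P → ∃ g ∈ Γ, ∀ x ∈ P, g * x * g⁻¹ ∈ autInducedBy ⊤ (PQ K))
    {γ : MulAut (PQ K)} (hγ : γ ∈ Γ) (hc : ∀ v, XX (h.rho (γ * X K * γ⁻¹) v) = h.rho (γ * X K * γ⁻¹) (XX v)) :
    γ * X K * γ⁻¹ ∈ autInducedBy ⊤ (PQ K) := by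
  have := h.finite_PQ
  have : Finite (MulAut (PQ K)) := inferInstance
  set x' : MulAut (PQ K) := γ * X K * γ⁻¹ with hx'
  have hsq : x' * x' = 1 := by
    have : x' * x' = γ * (X K * X K) * γ⁻¹ := by rw [hx']; group
    rw [this, h.X_sq]; group
  have hinv : x'⁻¹ = x' := inv_eq_of_mul_eq_one_left hsq
  have hx'Γ : x' ∈ Γ := Γ.mul_mem (Γ.mul_mem hγ (indu X_mem)) (Γ.inv_mem hγ)
  have hcomm : h.rho (X K) * h.rho x' = h.rho x' * h.rho (X K) := by
    funext v
    show h.rho (X K) (h.rho x' v) = h.rho x' (h.rho (X K) v)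
    rw [h.rho_X, h.rho_X, hc]
  have hone : ∀ α ∈ autInducedBy ⊤ (PQ K), x' * α * x'⁻¹ ∈ autInducedBy ⊤ (PQ K) := by
    intro α hα
    rw [h.mem_aut] at hα ⊢
    rcases hα with h1 | h1
    · left
      rw [map_mul, map_mul, h1, mul_one, ← map_mul, mul_inv_cancel, map_one]
    · right
      rw [map_mul, map_mul, h1, ← hcomm, mul_assoc, ← map_mul, mul_inv_cancel, map_one, mul_one]
  have hnorm : x' ∈ Subgroup.normalizer ((autInducedBy ⊤ (PQ K) : Subgroup (MulAut (PQ K))) : Set (MulAut (PQ K))) := by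
    rw [Subgroup.mem_normalizer_iff]
    intro α
    refine ⟨hone α, fun hh => ?_⟩
    have h2 := hone _ hh
    have h3 : x' * (x' * α * x'⁻¹) * x'⁻¹ = (x' * x') * α * (x' * x')⁻¹ := by group
    rw [h3, hsq] at h2
    simpa using h2
  have hz : IsPGroup 2 (Subgroup.zpowers x') := by
    rintro ⟨y, hy⟩
    obtain ⟨k, rfl⟩ := Subgroup.mem_zpowers_iff.1 hy
    refine ⟨1, ?_⟩
    apply Subtype.ext
    show (x' ^ k) ^ (2 ^ 1) = 1
    rw [pow_one, pow_two, ← zpow_add, ← two_mul, zpow_mul, zpow_two, hsq, one_zpow]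
  have hPp : IsPGroup 2 (Subgroup.zpowers x' ⊔ autInducedBy ⊤ (PQ K) : Subgroup (MulAut (PQ K))) :=
    hz.to_sup_of_normal_right' h.aut_pgroup ((Subgroup.zpowers_le).2 hnorm)
  have hPle : (Subgroup.zpowers x' ⊔ autInducedBy ⊤ (PQ K) : Subgroup (MulAut (PQ K))) ≤ Γ :=
    sup_le ((Subgroup.zpowers_le).2 hx'Γ) indu
  obtain ⟨g, -, hg⟩ := syl _ hPle hPp
  set P : Subgroup (MulAut (PQ K)) := Subgroup.zpowers x' ⊔ autInducedBy ⊤ (PQ K) with hP
  have hle : P.map (MulAut.conj g).toMonoidHom ≤ autInducedBy ⊤ (PQ K) := by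
    rintro _ ⟨y, hy, rfl⟩
    exact hg y hy
  have hcard : Nat.card P ≤ Nat.card (autInducedBy ⊤ (PQ K) : Subgroup (MulAut (PQ K))) := by
    have h1 := Subgroup.card_le_of_le hle
    rwa [Nat.card_congr (P.equivMapOfInjective _ (MulAut.conj g).injective).toEquiv.symm] at h1
  have heq : autInducedBy ⊤ (PQ K) = P := Subgroup.eq_of_le_of_card_ge le_sup_right hcard
  rw [heq]
  exact Subgroup.mem_sup_left (Subgroup.mem_zpowers x')

/-- for each `γ ∈ Γ`: either `γ` normalizes `Aut_S(Q)` or a Weyl element lies in `Γ` and moves `γ` into the normalizer -/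
theorem F4.main (h : F4 K w) {Γ : Subgroup (MulAut (PQ K))}
    (indu : autInducedBy ⊤ (PQ K) ≤ Γ)
    (syl : ∀ P : Subgroup (MulAut (PQ K)), P ≤ Γ → IsPGroup 2 P → ∃ g ∈ Γ, ∀ x ∈ P, g * x * g⁻¹ ∈ autInducedBy ⊤ (PQ K))
    (ti : TIAut (⊤ : Subgroup (PG K)) Γ) {γ : MulAut (PQ K)} (hγ : γ ∈ Γ) :
    NormAut (⊤ : Subgroup (PG K)) γ ∨
      ((∀ W : MulAut (PQ K), IsWQ W → W ∈ Γ) ∧ ∃ l ∈ LamQ K, l ∈ Γ ∧ NormAut (⊤ : Subgroup (PG K)) (l⁻¹ * γ)) := by
  rcases h.trichotomy γ with h1 | h1
  · exact Or.inl (ti γ hγ (X K) X_mem h.X_not_inn (h.comm_case indu syl hγ h1))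
  right
  set x' : MulAut (PQ K) := γ * X K * γ⁻¹ with hx'
  have hX := indu (X_mem (K := K))
  have hx'Γ : x' ∈ Γ := Γ.mul_mem (Γ.mul_mem hγ hX) (Γ.inv_mem hγ)
  have hlΓ : X K * x' * X K ∈ Γ := Γ.mul_mem (Γ.mul_mem hX hx'Γ) hX
  obtain ⟨W, hW⟩ := h.exists_W
  have hle : autInducedBy ⊤ (PQ K) ≤ LamQ K := le_sup_left
  have hWL : W ∈ LamQ K := Subgroup.mem_sup_right (Subgroup.subset_closure hW)
  have hXL : X K ∈ LamQ K := hle X_mem
  have hXWX : X K * W * X K ∈ LamQ K := (LamQ K).mul_mem ((LamQ K).mul_mem hXL hWL) hXL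
  have h20 := h.two
  -- the conjugation statement
  have hnorm : ∀ l ∈ Γ, h.rho x' * h.rho l = h.rho l * h.rho (X K) → NormAut (⊤ : Subgroup (PG K)) (l⁻¹ * γ) := by
    intro l hl hh
    have hmem : (l⁻¹ * γ) * X K * (l⁻¹ * γ)⁻¹ ∈ autInducedBy ⊤ (PQ K) := by
      rw [h.mem_aut]
      right
      have e1 : (l⁻¹ * γ) * X K * (l⁻¹ * γ)⁻¹ = l⁻¹ * (x' * l) := by rw [hx']; group
      rw [e1, map_mul, map_mul, hh, ← mul_assoc, ← map_mul, inv_mul_cancel, map_one, one_mul]
    exact ti _ (Γ.mul_mem (Γ.inv_mem hl) hγ) (X K) X_mem h.X_not_inn hmem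
  rcases h1 with h1 | h1
  · have hl : ∀ v, h.rho (X K * x' * X K) v = (v.2, v.1) := by
      intro v
      rw [map_mul, map_mul]
      show h.rho (X K) (h.rho x' (h.rho (X K) v)) = _
      rw [h.rho_X, h1, h.rho_X]
      ext
      · simp only [XX]; linear_combination v.1 * h20
      · simp only [XX]; linear_combination (v.1 + v.2) * h20
    have hlW : ∀ W : MulAut (PQ K), IsWQ W → h.rho W = h.rho (X K * x' * X K) := by
      intro W hW
      funext v
      rw [h.rho_W hW, hl]
    refine ⟨fun W' hW' => h.mem_of_rho indu hlΓ (hlW W' hW'), X K * x' * X K, ?_, hlΓ, hnorm _ hlΓ ?_⟩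
    · exact h.mem_of_rho hle hWL (hlW W hW).symm
    · funext v
      show h.rho x' (h.rho (X K * x' * X K) v) = h.rho (X K * x' * X K) (h.rho (X K) v)
      rw [hl, hl, h1, h.rho_X]
      rfl
  · have hl : ∀ v, h.rho (X K * x' * X K) v = (v.1 + v.2, v.2) := by
      intro v
      rw [map_mul, map_mul]
      show h.rho (X K) (h.rho x' (h.rho (X K) v)) = _
      rw [h.rho_X, h1, h.rho_X]
      ext
      · simp only [XX]; ring
      · simp only [XX]; linear_combination v.1 * h20
    have hlW : ∀ W : MulAut (PQ K), IsWQ W → h.rho W = h.rho x' := by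
      intro W hW
      funext v
      rw [h.rho_W hW, h1]
    refine ⟨fun W' hW' => h.mem_of_rho indu hx'Γ (hlW W' hW'), X K * x' * X K, ?_, hlΓ, hnorm _ hlΓ ?_⟩
    · refine h.mem_of_rho hle hXWX ?_
      rw [map_mul, map_mul, map_mul _ (X K * W), map_mul _ (X K) W, hlW W hW]
    · funext v
      show h.rho x' (h.rho (X K * x' * X K) v) = h.rho (X K * x' * X K) (h.rho (X K) v)
      rw [hl, hl, h1, h.rho_X]
      ext
      · simp only [XX]; linear_combination -v.1 * h20
      · simp only [XX]; ring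

end

/-- **(QTwo)** -/
theorem stQTwo : Cfsg.Agent.H776.P4.StQTwo.{u} := by
  intro K _ _ p n hK h2 Γ D hP γ
  obtain ⟨w, h⟩ := F4.of_hyp hK h2
  have hp2 : p = 2 := by
    have : p ∣ 2 := by
      rw [← h2]; exact dvd_pow_self p (by have := hK.hn; omega)
    exact (Nat.prime_dvd_prime_iff_eq hK.pp Nat.prime_two).1 this
  subst hp2
  constructor
  · intro hγ
    have hle : autInducedBy ⊤ (PQ K) ≤ LamQ K := le_sup_left
    obtain ⟨l, hlL, hlΓ, hl⟩ : ∃ l ∈ LamQ K, l ∈ Γ ∧ NormAut (⊤ : Subgroup (PG K)) (l⁻¹ * γ) := by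
      rcases h.main hP.indu hP.syl hP.ti hγ with h1 | ⟨-, h1⟩
      · exact ⟨1, (LamQ K).one_mem, Γ.one_mem, by simpa using h1⟩
      · exact h1
    obtain ⟨x, d, hd, hx⟩ := hP.norm _ (Γ.mul_mem (Γ.inv_mem hlΓ) hγ) hl
    refine ⟨l * MulAut.conjNormal x, (LamQ K).mul_mem hlL (hle ((mem_aut_iff _).2 ⟨x, rfl⟩)), d, hd,
      (MulAut.conjNormal x)⁻¹ * (l⁻¹ * γ), ?_, by group⟩
    intro e
    rw [← map_inv]
    show ((MulAut.conjNormal x⁻¹ ((l⁻¹ * γ) e) : PQ K) : PG K) = d e
    rw [MulAut.conjNormal_apply, hx]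
    group
  · rintro ⟨l, hl, d, hd, δ, hδ, rfl⟩
    have hLe : LamQ K ≤ Γ := by
      refine sup_le hP.indu ?_
      rw [Subgroup.closure_le]
      intro W hW
      by_contra hcon
      apply hP.nn
      intro γ' hγ'
      rcases h.main hP.indu hP.syl hP.ti hγ' with h1 | ⟨h1, -⟩
      · exact h1
      · exact absurd (h1 W hW) hcon
    exact Γ.mul_mem (hLe hl) (hP.D_res d hd δ hδ)

end Cfsg.Agent.H353.P4.QTwo
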